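import Mathlib
import Cfsg.Agent.Frobenius.Zassenhaus.Identify

/-!
# Perfect groups with an axis partition

If every non-identity element `g` of a finite perfect group lies in a subgroup `K g`, these
subgroups meet trivially, are permuted by conjugation and have index at most two in their
normalizers, then the group has order 60: the class equation of the partition is the pole count
for the finite rotation groups.
-/

set_option autoImplicit false

open Subgroup
open scoped commutatorElement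

namespace CfsgLib.ConstantFour

universe u

/-- The pole equation with one orbit. -/
theorem pole_one {m k f a : ℕ} (hk : 2 ≤ k) (hf : f = 1 ∨ f = 2) (hm : 2 * (f * k) ≤ m)
    (ha : a * (f * k) = (k - 1) * m) : a + 1 ≠ m := by
  intro h
  have hk' : ((k - 1 : ℕ) : ℤ) = (k : ℤ) - 1 := by omega
  have ha' : (a : ℤ) * ((f : ℤ) * k) = ((k : ℤ) - 1) * m := by rw [← hk']; exact_mod_cast ha
  have h' : (a : ℤ) = (m : ℤ) - 1 := by omega
  have hm' : 2 * ((f : ℤ) * k) ≤ m := by exact_mod_cast hm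
  have hk2 : (2 : ℤ) ≤ k := by exact_mod_cast hk
  rw [h'] at ha'
  rcases hf with rfl | rfl <;> push_cast at ha' hm' <;> nlinarith

/-- The data of one orbit, as a share of the group. -/
theorem share {m k f a : ℕ} (hk : 2 ≤ k) (hf : f = 1 ∨ f = 2) (hm : 2 * (f * k) ≤ m)
    (ha : a * (f * k) = (k - 1) * m) :
    (a : ℚ) / m = (1 - 1 / (k : ℚ)) / f ∧ 4 / (m : ℚ) ≤ (f : ℚ)⁻¹ * 2 / k ∧
      (1 / 4 : ℚ) ≤ (a : ℚ) / m ∧ (f = 1 → (1 / 2 : ℚ) ≤ (a : ℚ) / m) := by
  have hk0 : (0 : ℚ) < k := by exact_mod_cast (show 0 < k by omega)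
  have hf0 : (0 : ℚ) < f := by exact_mod_cast (show 0 < f by omega)
  have hm0 : (0 : ℚ) < m := by
    have : 0 < f * k := Nat.mul_pos (by omega) (by omega)
    exact_mod_cast (show 0 < m by omega)
  have ha' : (a : ℚ) * ((f : ℚ) * k) = ((k : ℚ) - 1) * m := by
    have := congrArg (Nat.cast (R := ℚ)) ha
    push_cast [Nat.cast_sub (show 1 ≤ k by omega)] at this
    exact this
  have h1 : (a : ℚ) / m = (1 - 1 / (k : ℚ)) / f := by
    field_simp
    linear_combination ha'
  have hk2 : 1 / (k : ℚ) ≤ 1 / 2 :=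
    one_div_le_one_div_of_le (by norm_num) (by exact_mod_cast hk)
  refine ⟨h1, ?_, ?_, ?_⟩
  · have hm' : 2 * ((f : ℚ) * k) ≤ m := by exact_mod_cast hm
    rw [div_le_div_iff₀ hm0 hk0]
    field_simp
    linarith
  · rw [h1]
    rcases hf with rfl | rfl <;> push_cast <;> linarith
  · intro e
    rw [h1, e]
    push_cast
    linarith

theorem pole_two_aux {m k j : ℕ} (hk : 2 ≤ k) (hj : 2 * (2 * j) ≤ m) (hk' : 2 * k ≤ m) (hj2 : 2 ≤ j)
    (e : 1 / (k : ℚ) + 1 / (2 * (j : ℚ)) = 1 / 2 + 1 / (m : ℚ)) : m = 12 := by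
  have hm0 : (0 : ℚ) < m := by exact_mod_cast (show 0 < m by omega)
  have hj0 : (0 : ℚ) < j := by exact_mod_cast (show 0 < j by omega)
  have hk3 : k ≠ 2 := by
    rintro rfl
    have hh : (4 : ℚ) * j ≤ m := by exact_mod_cast (show 4 * j ≤ m by omega)
    field_simp at e
    push_cast at e
    nlinarith
  have h6 : 1 / (k : ℚ) ≤ 1 / 3 :=
    one_div_le_one_div_of_le (by norm_num) (by exact_mod_cast (show 3 ≤ k by omega))
  have hm1 : 0 < 1 / (m : ℚ) := by positivity
  have hjlt : j < 3 := by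
    by_contra hh
    have : 1 / (2 * (j : ℚ)) ≤ 1 / 6 := by
      refine one_div_le_one_div_of_le (by norm_num) ?_
      have : (3 : ℚ) ≤ j := by exact_mod_cast (show 3 ≤ j by omega)
      linarith
    linarith
  obtain rfl : j = 2 := by omega
  push_cast at e
  have hklt : k < 4 := by
    by_contra hh
    have : 1 / (k : ℚ) ≤ 1 / 4 :=
      one_div_le_one_div_of_le (by norm_num) (by exact_mod_cast (show 4 ≤ k by omega))
    linarith
  obtain rfl : k = 3 := by omega
  field_simp at e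
  norm_num at e
  exact_mod_cast (show (m : ℚ) = 12 by linarith)

/-- The pole equation with two orbits. -/
theorem pole_two {m k f a k' f' a' : ℕ} (hk : 2 ≤ k) (hf : f = 1 ∨ f = 2) (hm : 2 * (f * k) ≤ m)
    (ha : a * (f * k) = (k - 1) * m) (hk' : 2 ≤ k') (hf' : f' = 1 ∨ f' = 2)
    (hm' : 2 * (f' * k') ≤ m) (ha' : a' * (f' * k') = (k' - 1) * m) (hsum : a + a' + 1 = m) :
    m = 12 := by
  obtain ⟨e1, b1, l1, u1⟩ := share hk hf hm ha
  obtain ⟨e2, b2, l2, u2⟩ := share hk' hf' hm' ha'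
  have hm0 : (0 : ℚ) < m := by exact_mod_cast (show 0 < m by omega)
  have hs : (a : ℚ) / m + (a' : ℚ) / m = 1 - 1 / (m : ℚ) := by
    have : (a : ℚ) + a' + 1 = m := by exact_mod_cast hsum
    field_simp
    linarith
  have hm1 : 0 < 1 / (m : ℚ) := by positivity
  rcases hf with rfl | rfl <;> rcases hf' with rfl | rfl
  · linarith [u1 rfl, u2 rfl]
  · refine pole_two_aux (j := k') hk (by omega) (by omega) hk' ?_
    push_cast at e1 e2
    rw [show 1 / (2 * (k' : ℚ)) = (1 / (k' : ℚ)) / 2 by ring]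
    linarith
  · refine pole_two_aux (j := k) hk' (by omega) (by omega) hk ?_
    push_cast at e1 e2
    rw [show 1 / (2 * (k : ℚ)) = (1 / (k : ℚ)) / 2 by ring]
    linarith
  · exfalso
    push_cast at e1 e2 b1 b2
    have h1 : 1 / (k : ℚ) + 1 / (k' : ℚ) = 2 / (m : ℚ) := by
      rw [show (2 : ℚ) / m = 2 * (1 / (m : ℚ)) by ring]
      linarith
    have : (0 : ℚ) < 1 / k' := by positivity
    have h4 : (4 : ℚ) / m ≤ 1 / k := by linarith [show ((2 : ℚ))⁻¹ * 2 / k = 1 / k by ring]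
    have h24 : (2 : ℚ) / m < 4 / m := by gcongr; norm_num
    linarith

theorem pole_three_aux {m b c : ℕ} (hm : 0 < m) (hb : 2 ≤ b) (hc : 2 * (2 * c) ≤ m) (hc2 : 2 ≤ c)
    (hbc : b ≤ c) (e : 1 / (b : ℚ) + 1 / (c : ℚ) = 1 / 2 + 2 / (m : ℚ)) :
    m = 12 ∨ m = 24 ∨ m = 60 := by
  have hm0 : (0 : ℚ) < m := by exact_mod_cast hm
  have hm1 : 0 < 2 / (m : ℚ) := by positivity
  have hb4 : b < 4 := by
    by_contra hh
    have h1 : 1 / (b : ℚ) ≤ 1 / 4 :=
      one_div_le_one_div_of_le (by norm_num) (by exact_mod_cast (show 4 ≤ b by omega))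
    have h2 : 1 / (c : ℚ) ≤ 1 / 4 :=
      one_div_le_one_div_of_le (by norm_num) (by exact_mod_cast (show 4 ≤ c by omega))
    linarith
  have hc6 : b = 3 → c < 6 := by
    rintro rfl
    by_contra hh
    have h2 : 1 / (c : ℚ) ≤ 1 / 6 :=
      one_div_le_one_div_of_le (by norm_num) (by exact_mod_cast (show 6 ≤ c by omega))
    push_cast at e
    linarith
  interval_cases b
  · exfalso
    have hc' : (4 : ℚ) * c ≤ m := by exact_mod_cast (show 4 * c ≤ m by omega)
    have hc0 : (0 : ℚ) < c := by exact_mod_cast (show 0 < c by omega)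
    field_simp at e
    push_cast at e
    nlinarith
  · have := hc6 rfl
    interval_cases c <;> field_simp at e <;> norm_num at e
    · exact Or.inl (by exact_mod_cast (show (m : ℚ) = 12 by linarith))
    · exact Or.inr (Or.inl (by exact_mod_cast (show (m : ℚ) = 24 by linarith)))
    · exact Or.inr (Or.inr (by exact_mod_cast (show (m : ℚ) = 60 by linarith)))

/-- The pole equation with three orbits. -/
theorem pole_three {m k f a k' f' a' k'' f'' a'' : ℕ} (hk : 2 ≤ k) (hf : f = 1 ∨ f = 2)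
    (hm : 2 * (f * k) ≤ m) (ha : a * (f * k) = (k - 1) * m) (hk' : 2 ≤ k')
    (hf' : f' = 1 ∨ f' = 2) (hm' : 2 * (f' * k') ≤ m) (ha' : a' * (f' * k') = (k' - 1) * m)
    (hk'' : 2 ≤ k'') (hf'' : f'' = 1 ∨ f'' = 2) (hm'' : 2 * (f'' * k'') ≤ m)
    (ha'' : a'' * (f'' * k'') = (k'' - 1) * m) (hsum : a + a' + a'' + 1 = m) :
    m = 12 ∨ m = 24 ∨ m = 60 := by
  obtain ⟨e1, -, l1, u1⟩ := share hk hf hm ha
  obtain ⟨e2, -, l2, u2⟩ := share hk' hf' hm' ha'
  obtain ⟨e3, -, l3, u3⟩ := share hk'' hf'' hm'' ha''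
  have hm0 : (0 : ℚ) < m := by exact_mod_cast (show 0 < m by omega)
  have hs : (a : ℚ) / m + (a' : ℚ) / m + (a'' : ℚ) / m = 1 - 1 / (m : ℚ) := by
    have : (a : ℚ) + a' + a'' + 1 = m := by exact_mod_cast hsum
    field_simp
    linarith
  have hm1 : 0 < 1 / (m : ℚ) := by positivity
  obtain rfl : f = 2 := hf.resolve_left fun e => by linarith [u1 e]
  obtain rfl : f' = 2 := hf'.resolve_left fun e => by linarith [u2 e]
  obtain rfl : f'' = 2 := hf''.resolve_left fun e => by linarith [u3 e]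
  push_cast at e1 e2 e3
  have h2m : (2 : ℚ) / m = 2 * (1 / (m : ℚ)) := by ring
  have hsum' : 1 / (k : ℚ) + 1 / (k' : ℚ) + 1 / (k'' : ℚ) = 1 + 2 / (m : ℚ) := by linarith
  have hsolve : ∀ b c : ℕ, 2 ≤ b → 2 ≤ c → 2 * (2 * b) ≤ m → 2 * (2 * c) ≤ m →
      1 / (b : ℚ) + 1 / (c : ℚ) = 1 / 2 + 2 / (m : ℚ) → m = 12 ∨ m = 24 ∨ m = 60 := by
    intro b c hb hc hbm hcm e
    rcases le_total b c with h | h
    · exact pole_three_aux (by omega) hb hcm hc h e
    · exact pole_three_aux (by omega) hc hbm hb h (by linarith)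
  by_cases h1 : k = 2
  · subst h1; push_cast at hsum'; exact hsolve k' k'' hk' hk'' hm' hm'' (by linarith)
  by_cases h2 : k' = 2
  · subst h2; push_cast at hsum'; exact hsolve k k'' hk hk'' hm hm'' (by linarith)
  by_cases h3 : k'' = 2
  · subst h3; push_cast at hsum'; exact hsolve k k' hk hk' hm hm' (by linarith)
  exfalso
  have f1 : 1 / (k : ℚ) ≤ 1 / 3 :=
    one_div_le_one_div_of_le (by norm_num) (by exact_mod_cast (show 3 ≤ k by omega))
  have f2 : 1 / (k' : ℚ) ≤ 1 / 3 :=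
    one_div_le_one_div_of_le (by norm_num) (by exact_mod_cast (show 3 ≤ k' by omega))
  have f3 : 1 / (k'' : ℚ) ≤ 1 / 3 :=
    one_div_le_one_div_of_le (by norm_num) (by exact_mod_cast (show 3 ≤ k'' by omega))
  linarith

/-- A finite perfect group with an axis partition has order 60. -/
theorem card_eq_sixty_of_axes {G : Type u} [Group G] [Finite G] [Nontrivial G]
    (hperf : commutator G = ⊤) (K : G → Subgroup G)
    (hmem : ∀ g : G, g ≠ 1 → g ∈ K g)
    (heq : ∀ g : G, g ≠ 1 → ∀ h ∈ K g, h ≠ 1 → K h = K g)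
    (hconj : ∀ g : G, g ≠ 1 → ∀ x : G, K (x * g * x⁻¹) = (K g).map (MulAut.conj x).toMonoidHom)
    (hidx : ∀ g : G, g ≠ 1 → (K g).relIndex (normalizer (K g : Set G)) ≤ 2)
    (htop : ∀ g : G, g ≠ 1 → K g ≠ ⊤) : Nat.card G = 60 := by
  classical
  haveI := Fintype.ofFinite G
  let A : G → Finset G := fun g =>
    Finset.univ.filter fun y => y ≠ 1 ∧ ∃ x : G, x * y * x⁻¹ ∈ K g
  have hmemA : ∀ g y : G, y ∈ A g ↔ y ≠ 1 ∧ ∃ x : G, x * y * x⁻¹ ∈ K g := fun g y => by simp [A]
  have hc1 : ∀ (x y : G), y ≠ 1 → x * y * x⁻¹ ≠ 1 := fun x y hy h => hy (by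
    rw [mul_inv_eq_one] at h
    exact mul_eq_left.1 h)
  have hK : ∀ g, g ≠ 1 → ∀ y x : G, y ≠ 1 → x * y * x⁻¹ ∈ K g →
      K g = (K y).map (MulAut.conj x).toMonoidHom := fun g hg y x hy hx => by
    rw [← hconj y hy x, heq g hg _ hx (hc1 x y hy)]
  -- the data of one orbit
  have hdata : ∀ g, g ≠ 1 → ∃ k f : ℕ, 2 ≤ k ∧ (f = 1 ∨ f = 2) ∧ 2 * (f * k) ≤ Nat.card G ∧
      (A g).card * (f * k) = (k - 1) * Nat.card G := by
    intro g hg
    set N := normalizer (K g : Set G) with hN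
    have hKN : K g ≤ N := le_normalizer
    set f := (K g).relIndex N with hf
    have hk2 : 2 ≤ Nat.card (K g) := by
      haveI : Nontrivial (K g) := ⟨⟨⟨g, hmem g hg⟩, 1, fun h => hg (congrArg Subtype.val h)⟩⟩
      exact Finite.one_lt_card
    have hNcard : Nat.card N = f * Nat.card (K g) := by
      rw [hf, Subgroup.relIndex, ← Subgroup.index_mul_card ((K g).subgroupOf N),
        Nat.card_congr (Subgroup.subgroupOfEquivOfLe hKN).toEquiv]
    have hf0 : 0 < f := Nat.pos_of_ne_zero Subgroup.FiniteIndex.index_ne_zero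
    have hf12 : f = 1 ∨ f = 2 := by have := hidx g hg; rw [← hN, ← hf] at this; omega
    have hNtop : N ≠ ⊤ := by
      intro h
      haveI : (K g).Normal := Subgroup.normalizer_eq_top_iff.1 (hN ▸ h)
      have hi : (K g).index = f := by rw [hf, h, Subgroup.relIndex_top_right]
      apply htop g hg
      rcases hf12 with e | e
      · exact Subgroup.index_eq_one.1 (hi.trans e)
      · rw [eq_top_iff, ← hperf, commutator_def, Subgroup.commutator_le]
        intro a _ b _
        rw [← QuotientGroup.eq_one_iff]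
        have : Fintype.card (G ⧸ K g) = 2 := by
          rw [← Nat.card_eq_fintype_card, ← Subgroup.index_eq_card, hi, e]
        haveI := Fact.mk Nat.prime_two
        haveI : IsCyclic (G ⧸ K g) := isCyclic_of_prime_card (p := 2)
          (by rw [← Subgroup.index_eq_card, hi, e])
        show QuotientGroup.mk' (K g) ⁅a, b⁆ = 1
        rw [map_commutatorElement, commutatorElement_eq_one_iff_commute]
        exact IsMulCommutative.is_comm.comm _ _
    refine ⟨Nat.card (K g), f, hk2, hf12, ?_, ?_⟩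
    · rw [← hNcard]
      have h1 := N.index_mul_card
      have h2 : 1 < N.index := Subgroup.one_lt_index_of_ne_top hNtop
      nlinarith [Nat.card_pos (α := N)]
    · -- pairs `(x, y)` with `x y x⁻¹` in `K g`
      let S : Finset (G × G) := (Finset.univ ×ˢ Finset.univ).filter fun q =>
        q.2 ∈ A g ∧ q.1 * q.2 * q.1⁻¹ ∈ K g
      have h1 : S.card = (A g).card * Nat.card N := by
        rw [Finset.card_eq_sum_card_fiberwise (f := Prod.snd) (t := A g)
          fun q hq => (Finset.mem_filter.1 hq).2.1, Finset.sum_const_nat]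
        intro y hy
        obtain ⟨hy1, x₀, hx₀⟩ := (hmemA g y).1 hy
        rw [show Nat.card N = Nat.card {x : G // x ∈ N} from rfl, Nat.card_eq_fintype_card,
          Fintype.card_subtype]
        refine Finset.card_nbij' (fun q => q.1 * x₀⁻¹) (fun a => (a * x₀, y)) ?_ ?_ ?_ ?_
        · rintro ⟨x, y'⟩ hq
          simp only [S, Finset.coe_filter, Set.mem_ofPred_eq, Finset.mem_filter] at hq
          obtain ⟨⟨-, -, hx⟩, rfl⟩ := hq
          simp only [Finset.coe_filter, Finset.mem_univ, true_and, Set.mem_ofPred_eq]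
          rw [hN, Subgroup.mem_normalizer_iff]
          intro h
          have e1 := hK g hg _ x₀ hy1 hx₀
          have e2 := hK g hg _ x hy1 hx
          constructor
          · intro hh
            rw [e1, Subgroup.mem_map] at hh
            obtain ⟨w, hw, rfl⟩ := hh
            rw [e2, Subgroup.mem_map]
            exact ⟨w, hw, by simp [mul_assoc]⟩
          · intro hh
            rw [e2, Subgroup.mem_map] at hh
            obtain ⟨w, hw, hw'⟩ := hh
            rw [e1, Subgroup.mem_map]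
            refine ⟨w, hw, ?_⟩
            simp only [MulEquiv.coe_toMonoidHom, MulAut.conj_apply] at hw' ⊢
            calc x₀ * w * x₀⁻¹ = (x * x₀⁻¹)⁻¹ * (x * w * x⁻¹) * (x * x₀⁻¹) := by group
              _ = h := by rw [hw']; group
        · intro a ha
          simp only [Finset.coe_filter, Finset.mem_univ, true_and, Set.mem_ofPred_eq] at ha
          simp only [S, Finset.coe_filter, Set.mem_ofPred_eq, Finset.mem_filter,
            Finset.mem_product, Finset.mem_univ, true_and, and_true]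
          refine ⟨hy, ?_⟩
          have := (Subgroup.mem_normalizer_iff.1 ha _).1 hx₀
          convert this using 1
          group
        · rintro ⟨x, y'⟩ hq
          simp only [Finset.coe_filter, Set.mem_ofPred_eq] at hq
          simp [hq.2]
        · intro a _
          simp
      have h2 : S.card = (Nat.card (K g) - 1) * Nat.card G := by
        rw [show Nat.card (K g) - 1 = ((Finset.univ.filter fun h : G => h ∈ K g).erase 1).card by
          rw [Finset.card_erase_of_mem (by simp [one_mem]), ← Fintype.card_subtype,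
            ← Nat.card_eq_fintype_card], Nat.card_eq_fintype_card, ← Finset.card_univ,
          ← Finset.card_product]
        refine Finset.card_nbij' (fun q => (q.1 * q.2 * q.1⁻¹, q.1))
          (fun r => (r.2, r.2⁻¹ * r.1 * r.2)) ?_ ?_ ?_ ?_
        · rintro ⟨x, y⟩ hq
          simp only [S, Finset.coe_filter, Set.mem_ofPred_eq] at hq
          simp only [Finset.coe_product, Set.mem_prod, Finset.mem_coe, Finset.mem_erase,
            Finset.mem_filter, Finset.mem_univ, true_and, and_true]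
          exact ⟨hc1 x y ((hmemA g y).1 hq.2.1).1, hq.2.2⟩
        · rintro ⟨h, x⟩ hr
          simp only [Finset.coe_product, Set.mem_prod, Finset.mem_coe, Finset.mem_erase,
            Finset.mem_filter, Finset.mem_univ, true_and, and_true] at hr
          simp only [S, Finset.coe_filter, Set.mem_ofPred_eq, Finset.mem_product, Finset.mem_univ,
            true_and, hmemA]
          have e : x * (x⁻¹ * h * x) * x⁻¹ = h := by group
          refine ⟨⟨fun e' => hr.1 ?_, x, by rw [e]; exact hr.2⟩, by rw [e]; exact hr.2⟩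
          rw [← e, e']
          group
        · rintro ⟨x, y⟩ _
          simp [mul_assoc]
        · rintro ⟨h, x⟩ _
          simp [mul_assoc]
      rw [← hNcard, ← h1, h2]
  have hsub : ∀ g, A g ⊆ Finset.univ.erase 1 := fun g y hy =>
    Finset.mem_erase.2 ⟨((hmemA g y).1 hy).1, Finset.mem_univ _⟩
  have hself : ∀ g, g ≠ 1 → g ∈ A g := fun g hg =>
    (hmemA g g).2 ⟨hg, 1, by simpa using hmem g hg⟩
  have hdisj : ∀ g h, g ≠ 1 → h ≠ 1 → h ∉ A g → Disjoint (A g) (A h) := by
    intro g h hg hh hna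
    rw [Finset.disjoint_left]
    intro y hy hy'
    obtain ⟨hy1, x, hx⟩ := (hmemA g y).1 hy
    obtain ⟨-, x', hx'⟩ := (hmemA h y).1 hy'
    apply hna
    refine (hmemA g h).2 ⟨hh, x * x'⁻¹, ?_⟩
    have hmy : h ∈ (K y).map (MulAut.conj x').toMonoidHom := hK h hh y x' hy1 hx' ▸ hmem h hh
    obtain ⟨w, hw, rfl⟩ := Subgroup.mem_map.1 hmy
    rw [hK g hg y x hy1 hx, Subgroup.mem_map]
    exact ⟨w, hw, by simp [mul_assoc]⟩
  have hU : (Finset.univ.erase (1 : G)).card + 1 = Nat.card G := by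
    rw [Finset.card_erase_add_one (Finset.mem_univ _), Finset.card_univ, Nat.card_eq_fintype_card]
  have hlow : ∀ g, g ≠ 1 → Nat.card G ≤ 4 * (A g).card := by
    intro g hg
    obtain ⟨k, f, hk, hf, hm, ha⟩ := hdata g hg
    obtain ⟨-, -, l, -⟩ := share hk hf hm ha
    have hm0 : (0 : ℚ) < (Nat.card G : ℚ) := by exact_mod_cast Nat.card_pos
    rw [le_div_iff₀ hm0] at l
    have : (Nat.card G : ℚ) ≤ 4 * ((A g).card : ℚ) := by linarith
    exact_mod_cast this
  have hnot : ∀ q, q ∣ 120 → Nat.card G = q → q ≠ 1 → q ≠ 120 → q = 60 := fun q hq e h1 h120 => by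
    by_contra h60
    exact CfsgLib.Frobenius.Zass.no_perfect_quotient hperf q e hq h1 h60 h120
  obtain ⟨g₁, hg₁⟩ := exists_ne (1 : G)
  obtain ⟨k₁, f₁, hk₁, hf₁, hm₁, ha₁⟩ := hdata g₁ hg₁
  by_cases h₁ : A g₁ = Finset.univ.erase 1
  · exact absurd (by rw [h₁, hU]) (pole_one hk₁ hf₁ hm₁ ha₁)
  obtain ⟨g₂, hg₂u, hg₂⟩ := Finset.exists_of_ssubset (lt_of_le_of_ne (hsub g₁) h₁)
  have hg₂1 := (Finset.mem_erase.1 hg₂u).1
  obtain ⟨k₂, f₂, hk₂, hf₂, hm₂, ha₂⟩ := hdata g₂ hg₂1
  have hd₁₂ := hdisj g₁ g₂ hg₁ hg₂1 hg₂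
  by_cases h₂ : A g₁ ∪ A g₂ = Finset.univ.erase 1
  · have hs := hU
    rw [← h₂, Finset.card_union_of_disjoint hd₁₂] at hs
    have := pole_two hk₁ hf₁ hm₁ ha₁ hk₂ hf₂ hm₂ ha₂ hs
    have := hnot 12 (by norm_num) this (by norm_num) (by norm_num)
    omega
  obtain ⟨g₃, hg₃u, hg₃⟩ := Finset.exists_of_ssubset
    (lt_of_le_of_ne (Finset.union_subset (hsub g₁) (hsub g₂)) h₂)
  rw [Finset.mem_union, not_or] at hg₃
  have hg₃1 := (Finset.mem_erase.1 hg₃u).1
  obtain ⟨k₃, f₃, hk₃, hf₃, hm₃, ha₃⟩ := hdata g₃ hg₃1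
  have hd₁₃ := hdisj g₁ g₃ hg₁ hg₃1 hg₃.1
  have hd₂₃ := hdisj g₂ g₃ hg₂1 hg₃1 hg₃.2
  have hd₃ : Disjoint (A g₁ ∪ A g₂) (A g₃) := Finset.disjoint_union_left.2 ⟨hd₁₃, hd₂₃⟩
  by_cases h₃ : A g₁ ∪ A g₂ ∪ A g₃ = Finset.univ.erase 1
  · have hs := hU
    rw [← h₃, Finset.card_union_of_disjoint hd₃, Finset.card_union_of_disjoint hd₁₂] at hs
    rcases pole_three hk₁ hf₁ hm₁ ha₁ hk₂ hf₂ hm₂ ha₂ hk₃ hf₃ hm₃ ha₃ hs with e | e | e
    · have := hnot 12 (by norm_num) e (by norm_num) (by norm_num); omega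
    · have := hnot 24 (by norm_num) e (by norm_num) (by norm_num); omega
    · exact e
  exfalso
  have hsub₃ : A g₁ ∪ A g₂ ∪ A g₃ ⊆ Finset.univ.erase 1 :=
    Finset.union_subset (Finset.union_subset (hsub g₁) (hsub g₂)) (hsub g₃)
  obtain ⟨g₄, hg₄u, hg₄⟩ := Finset.exists_of_ssubset (lt_of_le_of_ne hsub₃ h₃)
  simp only [Finset.mem_union, not_or] at hg₄
  have hg₄1 := (Finset.mem_erase.1 hg₄u).1
  have hd₄ : Disjoint (A g₁ ∪ A g₂ ∪ A g₃) (A g₄) := by
    simp only [Finset.disjoint_union_left]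
    exact ⟨⟨hdisj g₁ g₄ hg₁ hg₄1 hg₄.1.1, hdisj g₂ g₄ hg₂1 hg₄1 hg₄.1.2⟩,
      hdisj g₃ g₄ hg₃1 hg₄1 hg₄.2⟩
  have h4 := Finset.card_le_card (Finset.union_subset hsub₃ (hsub g₄))
  rw [Finset.card_union_of_disjoint hd₄, Finset.card_union_of_disjoint hd₃,
    Finset.card_union_of_disjoint hd₁₂] at h4
  have := hlow g₁ hg₁
  have := hlow g₂ hg₂1
  have := hlow g₃ hg₃1
  have := hlow g₄ hg₄1
  omega

end CfsgLib.ConstantFour
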