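import Cfsg.Agent.Chars.ConstantFour.Three
import Cfsg.Agent.Chars.ConstantFour.Partition

/-!
# A perfect group with a faithful real character of degree three has order 60

Every non-identity element fixes exactly a line of the representation space, and the pointwise
stabilisers of these lines form an axis partition.
-/

set_option autoImplicit false

open Cfsg CfsgLib.Chars
open scoped ComplexConjugate

namespace CfsgLib.ConstantFour

universe u

variable {G : Type u} [Group G] [Finite G]

/-- The fixed space of a subgroup. -/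
noncomputable def fixSpace (ρ : Representation ℂ G (Fin 3 → ℂ)) (H : Subgroup G) : Submodule ℂ (Fin 3 → ℂ) :=
  Representation.invariants (ρ.comp H.subtype : Representation ℂ H (Fin 3 → ℂ))

theorem mem_fixSpace {ρ : Representation ℂ G (Fin 3 → ℂ)} {H : Subgroup G} {v : Fin 3 → ℂ} :
    v ∈ fixSpace ρ H ↔ ∀ h ∈ H, ρ h v = v :=
  ⟨fun hv h hh => hv ⟨h, hh⟩, fun hv h => hv h h.2⟩

theorem mem_fixSpace_zpowers {ρ : Representation ℂ G (Fin 3 → ℂ)} {g : G} {v : Fin 3 → ℂ} :
    v ∈ fixSpace ρ (Subgroup.zpowers g) ↔ ρ g v = v := by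
  refine ⟨fun hv => mem_fixSpace.1 hv g (Subgroup.mem_zpowers g), fun hv => mem_fixSpace.2 ?_⟩
  intro h hh
  let St : Subgroup G :=
    { carrier := {x | ρ x v = v}
      mul_mem' := fun {x y} (hx : ρ x v = v) (hy : ρ y v = v) => show ρ (x * y) v = v by
        rw [map_mul, Module.End.mul_apply, hy, hx]
      one_mem' := show ρ 1 v = v by rw [map_one]; rfl
      inv_mem' := fun {x} (hx : ρ x v = v) => show ρ x⁻¹ v = v by
        conv_lhs => rw [← hx]
        rw [← Module.End.mul_apply, ← map_mul, inv_mul_cancel, map_one]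
        rfl }
  exact (Subgroup.zpowers_le.2 (show g ∈ St from hv)) hh

/-- The axis of a non-identity element is a line. -/
theorem finrank_axis (hperf : commutator G = ⊤) {ρ : Representation ℂ G (Fin 3 → ℂ)}
    (hreal : ∀ g, conj (ρ.character g) = ρ.character g)
    (hfaith : ∀ g, ρ.character g = 3 → g = 1) {g : G} (hg : g ≠ 1) :
    Module.finrank ℂ (fixSpace ρ (Subgroup.zpowers g)) = 1 := by
  classical
  haveI := Fintype.ofFinite G
  haveI : Invertible (Nat.card (Subgroup.zpowers g) : ℂ) :=
    invertibleOfNonzero (Nat.cast_ne_zero.2 Nat.card_pos.ne')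
  have h3 : ρ.character 1 = 3 := by rw [Representation.char_one, Module.finrank_fin_fun]; norm_num
  have hc : IsCharacter G ρ.character := ⟨3, ρ, rfl⟩
  let σ : Representation ℂ (Subgroup.zpowers g) (Fin 3 → ℂ) := ρ.comp (Subgroup.zpowers g).subtype
  have h := Representation.card_inv_mul_sum_char_eq_finrank σ
  have hsum : ∑ x : Subgroup.zpowers g, σ.character x = (orderOf g : ℂ) := by
    rw [← sum_pow_eq hperf hc h3 hreal (fun e => hg (hfaith g e)), ← Fin.sum_univ_eq_sum_range]
    exact (Fintype.sum_equiv (finEquivZPowers (isOfFinOrder_of_finite g)) _ _ fun i => rfl).symm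
  rw [hsum, Nat.card_zpowers, inv_mul_cancel₀ (Nat.cast_ne_zero.2 (orderOf_pos g).ne')] at h
  exact_mod_cast h.symm

/-- The pointwise stabiliser of a subspace. -/
def pointStab (ρ : Representation ℂ G (Fin 3 → ℂ)) (L : Submodule ℂ (Fin 3 → ℂ)) : Subgroup G where
  carrier := {h | ∀ v ∈ L, ρ h v = v}
  mul_mem' := fun {x y} hx hy v hv => by
    show ρ (x * y) v = v
    rw [map_mul, Module.End.mul_apply, hy v hv, hx v hv]
  one_mem' := fun v _ => by show ρ 1 v = v; rw [map_one]; rfl
  inv_mem' := fun {x} hx v hv => by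
    show ρ x⁻¹ v = v
    conv_lhs => rw [← hx v hv]
    rw [← Module.End.mul_apply, ← map_mul, inv_mul_cancel, map_one]
    rfl

theorem mem_pointStab {ρ : Representation ℂ G (Fin 3 → ℂ)} {L : Submodule ℂ (Fin 3 → ℂ)} {h : G} :
    h ∈ pointStab ρ L ↔ ∀ v ∈ L, ρ h v = v := Iff.rfl

/-- A real character of degree three: the normaliser of the stabiliser of an axis acts on the
axis by signs. -/
theorem relIndex_le_two {ρ : Representation ℂ G (Fin 3 → ℂ)}
    (hreal : ∀ g, conj (ρ.character g) = ρ.character g) (L : Submodule ℂ (Fin 3 → ℂ))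
    (hL : Module.finrank ℂ L = 1) (hfix : ∀ v, (∀ h ∈ pointStab ρ L, ρ h v = v) → v ∈ L) :
    (pointStab ρ L).relIndex (Subgroup.normalizer (pointStab ρ L : Set G)) ≤ 2 := by
  classical
  haveI := Fintype.ofFinite G
  set K := pointStab ρ L with hK
  set N := Subgroup.normalizer (K : Set G) with hN
  have hinv : ∀ n ∈ N, ∀ v ∈ L, ρ n v ∈ L := by
    intro n hn v hv
    refine hfix _ fun h hh => ?_
    have h1 : n⁻¹ * h * n ∈ K := (Subgroup.mem_normalizer_iff''.1 hn h).1 hh
    rw [← Module.End.mul_apply, ← map_mul, show h * n = n * (n⁻¹ * h * n) by group, map_mul,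
      Module.End.mul_apply, mem_pointStab.1 h1 v hv]
  obtain ⟨v₀, hv₀, hspan⟩ := finrank_eq_one_iff'.1 hL
  have hv₀' : (v₀ : Fin 3 → ℂ) ≠ 0 := fun e => hv₀ (Subtype.ext e)
  choose c hc using fun n : N => hspan ⟨ρ (n : G) v₀, hinv n n.2 v₀ v₀.2⟩
  have hc' : ∀ n : N, ρ (n : G) v₀ = c n • (v₀ : Fin 3 → ℂ) := fun n =>
    (congrArg Subtype.val (hc n)).symm
  have hcL : ∀ (n : N), ∀ v ∈ L, ρ (n : G) v = c n • v := by
    intro n v hv
    obtain ⟨t, ht⟩ := hspan ⟨v, hv⟩
    have ht' : v = t • (v₀ : Fin 3 → ℂ) := (congrArg Subtype.val ht).symm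
    rw [ht', map_smul, hc', smul_comm]
  have hcmul : ∀ n m : N, c (n * m) = c n * c m := fun n m => by
    apply smul_left_injective ℂ hv₀'
    show c (n * m) • (v₀ : Fin 3 → ℂ) = (c n * c m) • (v₀ : Fin 3 → ℂ)
    rw [← hc', Subgroup.coe_mul, map_mul, Module.End.mul_apply, hc' m, map_smul, hc' n, smul_smul,
      mul_comm]
  have hc1 : c 1 = 1 := by
    apply smul_left_injective ℂ hv₀'
    simp only [← hc', OneMemClass.coe_one, map_one, Module.End.one_apply, one_smul]
  -- the trace of `ρ n` after the projection to `L`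
  let E : Module.End ℂ (Fin 3 → ℂ) := (Nat.card K : ℂ)⁻¹ • ∑ k : K, ρ (k : G)
  have hEmem : ∀ v, E v ∈ L := by
    intro v
    refine hfix _ fun h hh => ?_
    simp only [E, LinearMap.smul_apply, LinearMap.sum_apply, map_smul, map_sum]
    congr 1
    exact Fintype.sum_equiv (Equiv.mulLeft (⟨h, hh⟩ : K)) _ _ fun k => by
      simp [← Module.End.mul_apply, ← map_mul]
  have hEfix : ∀ v ∈ L, E v = v := by
    intro v hv
    simp only [E, LinearMap.smul_apply, LinearMap.sum_apply]
    rw [Finset.sum_congr rfl (fun (k : K) _ => mem_pointStab.1 k.2 v hv), Finset.sum_const,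
      Finset.card_univ, ← Nat.card_eq_fintype_card, ← Nat.cast_smul_eq_nsmul ℂ, smul_smul,
      inv_mul_cancel₀ (Nat.cast_ne_zero.2 Nat.card_pos.ne'), one_smul]
  have htr : ∀ n : N, c n = (Nat.card K : ℂ)⁻¹ * ∑ k : K, ρ.character ((n : G) * k) := by
    intro n
    have h1 : LinearMap.trace ℂ _ (ρ (n : G) * E) = c n := by
      have e : ρ (n : G) * E = (c n • L.subtype) ∘ₗ (E.codRestrict L hEmem) :=
        LinearMap.ext fun v => hcL n _ (hEmem v)
      rw [e, LinearMap.trace_comp_comm',
        show (E.codRestrict L hEmem) ∘ₗ (c n • L.subtype) = c n • LinearMap.id from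
          LinearMap.ext fun v => Subtype.ext (by simp [hEfix _ v.2]),
        map_smul, LinearMap.trace_id, hL, Nat.cast_one, smul_eq_mul, mul_one]
    rw [← h1]
    simp only [E, mul_smul_comm, Finset.mul_sum, ← map_mul, map_smul, map_sum, smul_eq_mul]
    rfl
  have hreal' : ∀ x, ρ.character x⁻¹ = ρ.character x := fun x => by
    rw [map_inv_eq_conj (χ := ρ.character) ⟨3, ρ, rfl⟩, hreal]
  have hsq : ∀ n : N, c n * c n = 1 := by
    intro n
    have e : c n⁻¹ = c n := by
      rw [htr, htr]
      congr 1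
      let e0 : K ≃ K :=
        { toFun := fun k => ⟨(n : G)⁻¹ * (k : G)⁻¹ * n,
            (Subgroup.mem_normalizer_iff''.1 n.2 _).1 (inv_mem k.2)⟩
          invFun := fun k => ⟨((n : G) * k * (n : G)⁻¹)⁻¹,
            inv_mem ((Subgroup.mem_normalizer_iff.1 n.2 _).1 k.2)⟩
          left_inv := fun k => Subtype.ext (by simp [mul_assoc])
          right_inv := fun k => Subtype.ext (by simp [mul_assoc]) }
      refine Fintype.sum_equiv e0 _ _ fun k => ?_
      rw [← hreal']
      simp [e0, mul_assoc]
    have := hcmul n⁻¹ n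
    rw [inv_mul_cancel, hc1, e] at this
    exact this.symm
  let ψ : N →* ℂˣ := MonoidHom.toHomUnits
    { toFun := c, map_one' := hc1, map_mul' := hcmul }
  have hker : ψ.ker = K.subgroupOf N := by
    ext n
    rw [MonoidHom.mem_ker, Units.ext_iff, Subgroup.mem_subgroupOf, mem_pointStab]
    show c n = 1 ↔ _
    refine ⟨fun h v hv => by rw [hcL n v hv, h, one_smul], fun h => ?_⟩
    apply smul_left_injective ℂ hv₀'
    simp only [← hc' n, h _ v₀.2, one_smul]
  rw [Subgroup.relIndex, ← hker, Subgroup.index_ker]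
  calc Nat.card ψ.range ≤ ({1, -1} : Finset ℂ).card := by
        rw [← Nat.card_eq_finsetCard]
        refine Nat.card_le_card_of_injective (fun x => ⟨((x : ℂˣ) : ℂ), ?_⟩) fun x y h =>
          Subtype.ext (Units.ext (congrArg Subtype.val h))
        obtain ⟨_, n, rfl⟩ := x
        rcases mul_self_eq_one_iff.1 (hsq n) with h | h <;> simp [ψ, h]
    _ ≤ 2 := Finset.card_le_two

/-- A finite perfect group with a faithful real irreducible character of degree three has order
60. -/
theorem card_eq_sixty_of_real_three (hperf : commutator G = ⊤) (χ : IrrCharacter G)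
    (h3 : (χ : G → ℂ) 1 = 3) (hreal : ∀ g, conj ((χ : G → ℂ) g) = (χ : G → ℂ) g)
    (hfaith : ∀ g, (χ : G → ℂ) g = 3 → g = 1) : Nat.card G = 60 := by
  classical
  obtain ⟨n, ρ, hirr, hρ⟩ := χ.2
  rw [← hρ, Representation.char_one, Module.finrank_fin_fun] at h3
  obtain rfl : n = 3 := by exact_mod_cast h3
  rw [← hρ] at hreal hfaith
  haveI : Nontrivial G := by
    by_contra hn
    rw [not_nontrivial_iff_subsingleton] at hn
    let W : Submodule ℂ (Fin 3 → ℂ) := Submodule.span ℂ {Pi.single 0 1}
    rcases (isIrreducible_iff_forall.1 hirr).2 W (fun g v hv => by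
      rw [Subsingleton.elim g 1, map_one]; exact hv) with e | e
    · have : (Pi.single 0 1 : Fin 3 → ℂ) ∈ W := Submodule.mem_span_singleton_self _
      rw [e, Submodule.mem_bot] at this
      have := congrFun this 0
      simp at this
    · have h1 := finrank_span_le_card (R := ℂ) ({Pi.single 0 1} : Set (Fin 3 → ℂ))
      change Module.finrank ℂ W ≤ _ at h1
      rw [e, finrank_top, Module.finrank_fin_fun] at h1
      simp at h1
  let L : G → Submodule ℂ (Fin 3 → ℂ) := fun g => fixSpace ρ (Subgroup.zpowers g)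
  have hL : ∀ g, g ≠ 1 → Module.finrank ℂ (L g) = 1 := fun g hg =>
    finrank_axis hperf hreal hfaith hg
  have hmem : ∀ g : G, g ∈ pointStab ρ (L g) := fun g v hv => mem_fixSpace_zpowers.1 hv
  refine card_eq_sixty_of_axes hperf (fun g => pointStab ρ (L g)) (fun g _ => hmem g) ?_ ?_ ?_ ?_
  · intro g hg h hh hh1
    have : L g = L h := Submodule.eq_of_le_of_finrank_eq
      (fun v hv => mem_fixSpace_zpowers.2 (mem_pointStab.1 hh v hv)) (by rw [hL g hg, hL h hh1])
    simp only [this]
  · intro g _ x
    have hLx : ∀ v, v ∈ L (x * g * x⁻¹) ↔ ρ x⁻¹ v ∈ L g := fun v => by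
      simp only [L, mem_fixSpace_zpowers, map_mul, Module.End.mul_apply]
      constructor
      · intro h
        conv_rhs => rw [← h]
        simp [← Module.End.mul_apply, ← map_mul, mul_assoc]
      · intro h
        rw [h, ← Module.End.mul_apply, ← map_mul, mul_inv_cancel, map_one]
        rfl
    ext h
    rw [Subgroup.mem_map_equiv]
    simp only [mem_pointStab, hLx, MulAut.conj_symm_apply, map_mul, Module.End.mul_apply]
    constructor
    · intro hh v hv
      have := hh (ρ x v) (by rwa [← Module.End.mul_apply, ← map_mul, inv_mul_cancel, map_one])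
      rw [this, ← Module.End.mul_apply, ← map_mul, inv_mul_cancel, map_one]
      rfl
    · intro hh v hv
      have := hh _ hv
      simp only [← Module.End.mul_apply, ← map_mul] at this ⊢
      have e := congrArg (ρ x) this
      simp only [← Module.End.mul_apply, ← map_mul, mul_assoc, mul_inv_cancel_left] at e
      rw [mul_inv_cancel, mul_one, map_one, Module.End.one_apply] at e
      exact e
  · intro g hg
    refine relIndex_le_two hreal (L g) (hL g hg) fun v hv => ?_
    exact mem_fixSpace_zpowers.2 (hv g (hmem g))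
  · intro g hg htop
    rcases (isIrreducible_iff_forall.1 hirr).2 (L g) (fun x v hv => by
      rw [mem_pointStab.1 (show x ∈ pointStab ρ (L g) by rw [htop]; trivial) v hv]; exact hv)
      with e | e
    · have := hL g hg
      rw [e, finrank_bot] at this
      omega
    · have := hL g hg
      rw [e, finrank_top, Module.finrank_fin_fun] at this
      omega

end CfsgLib.ConstantFour
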