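import Cfsg.Agent.Chars.ConstantFour.Axes
import Cfsg.Agent.Chars.Basic.Linear

/-!
# Characters with constant degree minus value four or zero

If every non-principal irreducible character of a perfect group satisfies `χ 1 - χ u = 4` or
`χ u = 0`, the characters of degree three with value `-1` at `u` are real, share their kernel
`N`, the quotient by `N` has order 60 and every other character outside this quotient vanishes at
`u`.
-/

set_option autoImplicit false

open Cfsg CfsgLib.Chars CfsgLib.FrobSchur
open CfsgLib.Chars.Ito (congrRep congrRep_apply skewRep character_skewRep)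
open scoped ComplexConjugate

namespace CfsgLib.ConstantFour

universe u

variable {G : Type u} [Group G]

/-- The symmetric matrices. -/
noncomputable def symRep {n : Type*} [Fintype n] [DecidableEq n] (X : G →* Matrix n n ℂ) :
    Subrepresentation (congrRep X) where
  toSubmodule :=
    { carrier := {M | M.transpose = M}
      add_mem' := fun {a b} (ha : a.transpose = a) (hb : b.transpose = b) =>
        show (a + b).transpose = a + b by rw [Matrix.transpose_add, ha, hb]
      zero_mem' := show (0 : Matrix n n ℂ).transpose = 0 by simp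
      smul_mem' := fun c {a} (ha : a.transpose = a) => show (c • a).transpose = c • a by
        rw [Matrix.transpose_smul, ha] }
  apply_mem_toSubmodule := fun g M (hM : M.transpose = M) =>
    show (congrRep X g M).transpose = congrRep X g M by
      rw [congrRep_apply, Matrix.transpose_mul, Matrix.transpose_mul, Matrix.transpose_transpose, hM]
      simp [Matrix.mul_assoc]

theorem character_congrRep {n : Type*} [Fintype n] [DecidableEq n] (X : G →* Matrix n n ℂ) (g : G) :
    (congrRep X).character g = (X g).trace ^ 2 := by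
  rw [Representation.character, trace_linearMap_matrix]
  simp [congrRep_apply, Matrix.mul_apply, Matrix.single_apply, Matrix.trace, sq,
    Finset.mul_sum, Finset.sum_mul, ite_and]
  exact Finset.sum_comm

variable [Finite G]

/-- The square of a character of degree three of a perfect group contains the conjugate. -/
theorem exists_sq_split (hperf : commutator G = ⊤) {χ : G → ℂ} (hχ : IsCharacter G χ)
    (h3 : χ 1 = 3) : ∃ σ : G → ℂ, IsCharacter G σ ∧ ∀ g, χ g ^ 2 = conj (χ g) + σ g := by
  obtain ⟨n, ρ, rfl⟩ := hχ
  have hc : IsCompl (skewRep (mat ρ)).toSubmodule (symRep (mat ρ)).toSubmodule := by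
    constructor
    · rw [Submodule.disjoint_def]
      intro M (h1 : M.transpose = -M) (h2 : M.transpose = M)
      have h : (2 : ℂ) • M = 0 := by
        rw [two_smul]
        nth_rewrite 2 [← h2]
        rw [h1, add_neg_cancel]
      exact (smul_eq_zero.1 h).resolve_left two_ne_zero
    · rw [Submodule.codisjoint_iff_exists_add_eq]
      intro M
      refine ⟨(2⁻¹ : ℂ) • (M - M.transpose), (2⁻¹ : ℂ) • (M + M.transpose), ?_, ?_, ?_⟩
      · show (_ : Matrix _ _ ℂ).transpose = -_
        simp [Matrix.transpose_smul, smul_sub]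
      · show (_ : Matrix _ _ ℂ).transpose = _
        simp [Matrix.transpose_smul, add_comm]
      · rw [← smul_add]
        have : M - M.transpose + (M + M.transpose) = (2 : ℂ) • M := by rw [two_smul]; abel
        rw [this, smul_smul]
        norm_num
  refine ⟨(symRep (mat ρ)).toRepresentation.character, isCharacter_character _, fun g => ?_⟩
  have h := congrFun (character_of_isCompl (congrRep (mat ρ)) _ _ hc) g
  rw [Pi.add_apply, character_congrRep, trace_mat, character_skewRep, trace_mat, trace_mat] at h
  rw [h, add_left_inj, ← sq g]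
  linear_combination (sq_eq hperf ⟨n, ρ, rfl⟩ h3 g) / 2

variable [Fintype G]

theorem classInner_mul_left_conj (f g h : G → ℂ) :
    classInner (f * g) h = classInner g (fun x => conj (f x) * h x) := by
  simp only [classInner, Pi.mul_apply, map_mul, Complex.conj_conj]
  congr 1
  exact Finset.sum_congr rfl fun x _ => by ring

/-- A constituent where a character is positive. -/
theorem exists_constituent_pos {R : G → ℂ} (hR : IsCharacter G R) {g : G} (h : 0 < (R g).re) :
    ∃ ψ : IrrCharacter G, classInner R (ψ : G → ℂ) ≠ 0 ∧ 0 < ((ψ : G → ℂ) g).re := by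
  obtain ⟨c, hc, hc'⟩ := exists_nat_coeff hR
  rw [hc] at h
  simp only [Finset.sum_apply, Pi.smul_apply, smul_eq_mul, Complex.re_sum, Complex.mul_re,
    Complex.natCast_re, Complex.natCast_im, zero_mul, sub_zero] at h
  obtain ⟨ψ, -, hψ⟩ := Finset.exists_lt_of_sum_lt (f := fun _ => (0 : ℝ)) (by simpa using h)
  have h0 : c ψ ≠ 0 := fun e => by simp [e] at hψ
  exact ⟨ψ, by rw [hc']; exact_mod_cast h0, (pos_iff_pos_of_mul_pos hψ).1 (by positivity)⟩

/-- A constituent where a character is negative. -/
theorem exists_constituent_neg {R : G → ℂ} (hR : IsCharacter G R) {g : G} (h : (R g).re < 0) :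
    ∃ ψ : IrrCharacter G, classInner R (ψ : G → ℂ) ≠ 0 ∧ ((ψ : G → ℂ) g).re < 0 := by
  obtain ⟨c, hc, hc'⟩ := exists_nat_coeff hR
  rw [hc] at h
  simp only [Finset.sum_apply, Pi.smul_apply, smul_eq_mul, Complex.re_sum, Complex.mul_re,
    Complex.natCast_re, Complex.natCast_im, zero_mul, sub_zero] at h
  obtain ⟨ψ, -, hψ⟩ := Finset.exists_lt_of_sum_lt (g := fun _ => (0 : ℝ)) (by simpa using h)
  have h0 : c ψ ≠ 0 := fun e => by simp [e] at hψ
  refine ⟨ψ, by rw [hc']; exact_mod_cast h0, ?_⟩
  by_contra hh
  exact absurd (mul_nonneg (Nat.cast_nonneg (c ψ)) (not_lt.1 hh)) (not_le.2 hψ)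

/-- Splitting off a constituent, with the degrees. -/
theorem exists_split {R : G → ℂ} (hR : IsCharacter G R) (ψ : IrrCharacter G)
    (h : classInner R (ψ : G → ℂ) ≠ 0) {n : ℕ} (hn : R 1 = n) :
    ∃ (φ : G → ℂ) (d m : ℕ), IsCharacter G φ ∧ R = (ψ : G → ℂ) + φ ∧ (ψ : G → ℂ) 1 = d ∧ 0 < d ∧
      φ 1 = m ∧ d + m = n := by
  obtain ⟨φ, hφ, rfl⟩ := exists_add_of_classInner_ne_zero hR ψ h
  obtain ⟨d, hd0, hd⟩ := exists_pos_natCast_map_one ψ.2
  obtain ⟨m, hm⟩ := exists_natCast_map_one hφ
  refine ⟨φ, d, m, hφ, rfl, hd, hd0, hm, ?_⟩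
  rw [Pi.add_apply, hd, hm] at hn
  exact_mod_cast hn

theorem eq_one_of_degree_one (hperf : commutator G = ⊤) (χ : IrrCharacter G)
    (h : (χ : G → ℂ) 1 = 1) : χ = oneChar G := by
  obtain ⟨l, rfl⟩ := exists_linChar_eq χ h
  exact (linChar_eq_oneChar_iff l).2 (MonoidHom.ext fun g => MonoidHom.mem_ker.mp
    (Abelianization.commutator_subset_ker l (hperf ▸ Subgroup.mem_top g)))

/-- A character of degree at most one without trivial constituent vanishes. -/
theorem eq_zero_of_degree_le_one (hperf : commutator G = ⊤) {R : G → ℂ} (hR : IsCharacter G R)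
    {n : ℕ} (hn : R 1 = n) (hn1 : n ≤ 1) (h1 : classInner R (oneChar G : G → ℂ) = 0) : R = 0 := by
  rcases Nat.eq_zero_or_pos n with rfl | hpos
  · exact eq_zero_of_map_one_eq_zero hR (by simpa using hn)
  · exfalso
    obtain ⟨ψ, hψ, -⟩ := exists_constituent_pos hR (g := 1)
      (by rw [hn]; simp only [Complex.natCast_re]; exact_mod_cast hpos)
    obtain ⟨φ, d, m, -, -, hd, hd0, -, hdm⟩ := exists_split hR ψ hψ hn
    obtain rfl : d = 1 := by omega
    rw [eq_one_of_degree_one hperf ψ (by rw [hd]; simp)] at hψ
    exact hψ h1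

/-- A character of degree three without trivial constituent is irreducible. -/
theorem exists_eq_of_degree_three (hperf : commutator G = ⊤) {R : G → ℂ} (hR : IsCharacter G R)
    (hn : R 1 = 3) (h1 : classInner R (oneChar G : G → ℂ) = 0) :
    ∃ ψ : IrrCharacter G, ψ ≠ oneChar G ∧ R = (ψ : G → ℂ) := by
  obtain ⟨ψ, hψ, -⟩ := exists_constituent_pos hR (g := 1) (by rw [hn]; norm_num)
  obtain ⟨φ, d, m, hφ, hRe, hd, hd0, hm, hdm⟩ := exists_split hR ψ hψ (n := 3) (by simpa using hn)
  have hne : ψ ≠ oneChar G := fun e => hψ (e ▸ h1)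
  have hd1 : d ≠ 1 := fun e => hne (eq_one_of_degree_one hperf ψ (by rw [hd, e]; simp))
  have hφ1 : classInner φ (oneChar G : G → ℂ) = 0 := by
    rwa [hRe, classInner_add_left, classInner_of_ne hne, zero_add] at h1
  refine ⟨ψ, hne, ?_⟩
  rw [hRe, eq_zero_of_degree_le_one hperf hφ hm (by omega) hφ1, add_zero]

/-- The hypothesis on the element `x`. -/
structure Four (x : G) : Prop where
  perfect : commutator G = ⊤
  ne_one : x ≠ 1
  value : ∀ χ : IrrCharacter G, χ ≠ oneChar G →
    (χ : G → ℂ) x = 0 ∨ (χ : G → ℂ) x = (χ : G → ℂ) 1 - 4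

variable {x : G}

theorem Four.deg_two (h : Four x) (χ : IrrCharacter G) (h2 : (χ : G → ℂ) 1 = 2) :
    (χ : G → ℂ) x = 0 := by
  have hne : χ ≠ oneChar G := fun e => by rw [e, oneChar_apply] at h2; norm_num at h2
  refine (h.value χ hne).resolve_right fun hv => ?_
  rw [h2] at hv
  norm_num at hv
  let N : G → ℂ := fun g => (χ : G → ℂ) g * conj ((χ : G → ℂ) g)
  have hN : IsCharacter G N := isCharacter_mul (isCharacter_coe χ) (isCharacter_conj (isCharacter_coe χ))
  have hN1 : classInner N (oneChar G : G → ℂ) = 1 := by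
    rw [← classInner_self χ]; simp [classInner, N]
  obtain ⟨R, hR, hNR⟩ := exists_add_of_classInner_ne_zero hN (oneChar G) (by rw [hN1]; exact one_ne_zero)
  have hR0 : classInner R (oneChar G : G → ℂ) = 0 := by
    rw [hNR, classInner_add_left, classInner_self] at hN1
    linear_combination hN1
  have hval : ∀ g, N g = 1 + R g := fun g => by rw [hNR, Pi.add_apply, oneChar_apply]
  have e1 := hval 1
  have e2 := hval x
  simp only [N, h2, hv, map_neg, map_ofNat] at e1 e2
  obtain ⟨ψ, hψ1, rfl⟩ := exists_eq_of_degree_three h.perfect hR (by linear_combination -e1) hR0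
  have h3 : (ψ : G → ℂ) 1 = 3 := by linear_combination -e1
  have hx : (ψ : G → ℂ) x = 3 := by linear_combination -e2
  rcases h.value ψ hψ1 with e | e <;> rw [hx] at e
  · norm_num at e
  · rw [h3] at e; norm_num at e

/-- The characters of degree three with value minus one. -/
def Three (x : G) (χ : IrrCharacter G) : Prop :=
  (χ : G → ℂ) 1 = 3 ∧ (χ : G → ℂ) x = -1

/-- The values at `x` of the non-principal characters. -/
theorem Four.trichotomy (h : Four x) (χ : IrrCharacter G) (hne : χ ≠ oneChar G) :
    Three x χ ∨ (χ : G → ℂ) x = 0 ∨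
      ∃ d : ℕ, 5 ≤ d ∧ (χ : G → ℂ) 1 = d ∧ (χ : G → ℂ) x = (d : ℂ) - 4 := by
  rcases h.value χ hne with e | e
  · exact Or.inr (Or.inl e)
  obtain ⟨d, hd0, hd⟩ := exists_pos_natCast_map_one χ.2
  by_cases h1 : d = 1
  · exact absurd (eq_one_of_degree_one h.perfect χ (by rw [hd, h1]; simp)) hne
  by_cases h2 : d = 2
  · exact Or.inr (Or.inl (h.deg_two χ (by rw [hd, h2]; simp)))
  by_cases h3 : d = 3
  · exact Or.inl ⟨by rw [hd, h3]; simp, by rw [e, hd, h3]; norm_num⟩
  by_cases h4 : d = 4
  · exact Or.inr (Or.inl (by rw [e, hd, h4]; norm_num))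
  exact Or.inr (Or.inr ⟨d, by omega, hd, by rw [e, hd]⟩)

theorem Four.three_of_neg (h : Four x) (χ : IrrCharacter G) (hneg : ((χ : G → ℂ) x).re < 0) :
    Three x χ := by
  have hne : χ ≠ oneChar G := fun e => by rw [e, oneChar_apply] at hneg; norm_num at hneg
  rcases h.trichotomy χ hne with e | e | ⟨d, hd, -, e⟩
  · exact e
  · rw [e] at hneg; norm_num at hneg
  · rw [e] at hneg
    simp at hneg
    have : (5 : ℝ) ≤ d := by exact_mod_cast hd
    linarith

theorem Four.exists_three (h : Four x) : ∃ χ : IrrCharacter G, Three x χ := by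
  classical
  by_contra! hno
  have hcol := sum_irr_map_one_mul (G := G) x
  rw [if_neg h.ne_one] at hcol
  have hr := congrArg Complex.re hcol
  rw [Complex.re_sum, Complex.zero_re] at hr
  have hnn : ∀ χ ∈ (Finset.univ : Finset (IrrCharacter G)),
      0 ≤ ((χ : G → ℂ) 1 * (χ : G → ℂ) x).re := by
    intro χ _
    obtain ⟨d, -, hd⟩ := exists_pos_natCast_map_one χ.2
    have hv : 0 ≤ ((χ : G → ℂ) x).re := by
      by_contra hh
      exact hno χ (h.three_of_neg χ (not_le.1 hh))
    rw [hd, Complex.mul_re, Complex.natCast_re, Complex.natCast_im, zero_mul, sub_zero]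
    positivity
  have := (Finset.sum_eq_zero_iff_of_nonneg hnn).1 hr (oneChar G) (Finset.mem_univ _)
  simp at this

/-- The characters of degree three with value minus one are real. -/
theorem Four.three_real (h : Four x) {φ : IrrCharacter G} (hφ : Three x φ) :
    conjChar φ = φ := by
  by_contra hne
  obtain ⟨h3, hv⟩ := hφ
  obtain ⟨σ, hσ, hsq⟩ := exists_sq_split h.perfect (isCharacter_coe φ) h3
  let f : G → ℂ := fun g => (φ : G → ℂ) g
  let fb : G → ℂ := fun g => conj ((φ : G → ℂ) g)
  have hf : IsCharacter G f := isCharacter_coe φ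
  have hfb : IsCharacter G fb := isCharacter_conj (isCharacter_coe φ)
  have hfb' : fb = (conjChar φ : G → ℂ) := funext fun g => (conjChar_apply φ g).symm
  have hsq' : f * f = fb + σ := funext fun g => by
    have := hsq g
    rw [sq] at this
    exact this
  have hσ1 : σ 1 = 6 := by
    have := hsq 1
    rw [h3] at this
    simp only [map_ofNat] at this
    linear_combination -this
  have hσx : σ x = 2 := by
    have := hsq x
    rw [hv] at this
    simp only [map_neg, map_one] at this
    linear_combination -this
  have hf1 : ∀ ψ : IrrCharacter G, classInner (f * f) (ψ : G → ℂ) =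
      classInner fb (ψ : G → ℂ) + classInner σ (ψ : G → ℂ) := fun ψ => by
    rw [hsq', classInner_add_left]
  have hone : conjChar φ ≠ oneChar G := fun e => by
    have := congrArg (fun ψ : IrrCharacter G => (ψ : G → ℂ) 1) e
    simp only [conjChar_apply, oneChar_apply, h3, map_ofNat] at this
    norm_num at this
  have hσ0 : classInner σ (oneChar G : G → ℂ) = 0 := by
    have e := hf1 (oneChar G)
    rw [hfb', classInner_of_ne hone, zero_add, classInner_mul_left_conj] at e
    rw [← e, show (fun g => conj (f g) * (oneChar G : G → ℂ) g) = (conjChar φ : G → ℂ) from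
      funext fun g => by simp [f]]
    exact classInner_of_ne fun e' => hne e'.symm
  -- the symmetric square is irreducible
  obtain ⟨s, hs, hsx⟩ := exists_constituent_pos hσ (g := x) (by rw [hσx]; norm_num)
  obtain ⟨r, d, m, hr, hσe, hd, -, hm, hdm⟩ := exists_split hσ s hs (n := 6) (by simpa using hσ1)
  have hs1 : s ≠ oneChar G := fun e => hs (e ▸ hσ0)
  have hd5 : 5 ≤ d := by
    rcases h.trichotomy s hs1 with e | e | ⟨d', hd', he, -⟩
    · rw [e.2] at hsx; norm_num at hsx
    · rw [e] at hsx; norm_num at hsx
    · rw [hd] at he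
      have : d = d' := by exact_mod_cast he
      omega
  have hr0 : classInner r (oneChar G : G → ℂ) = 0 := by
    rwa [hσe, classInner_add_left, classInner_of_ne hs1, zero_add] at hσ0
  rw [eq_zero_of_degree_le_one h.perfect hr hm (by omega) hr0, add_zero] at hσe
  have hs6 : (s : G → ℂ) 1 = 6 := hσe ▸ hσ1
  have hsfb : conjChar φ ≠ s := fun e => by
    rw [← e, conjChar_apply, h3] at hs6
    simp only [map_ofNat] at hs6
    norm_num at hs6
  have hnorm2 : classInner (f * f) (f * f) = 2 := by
    rw [hsq', hσe, hfb']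
    rw [classInner_add_left, ← classInner_conj_symm ((conjChar φ : G → ℂ) + (s : G → ℂ)) (conjChar φ : G → ℂ),
      ← classInner_conj_symm ((conjChar φ : G → ℂ) + (s : G → ℂ)) (s : G → ℂ), classInner_add_left,
      classInner_add_left, classInner_self, classInner_self, classInner_of_ne hsfb,
      classInner_of_ne (Ne.symm hsfb)]
    norm_num
  -- the product with the conjugate is one plus an irreducible character
  have hN : IsCharacter G (f * fb) := isCharacter_mul hf hfb
  have hN1 : classInner (f * fb) (oneChar G : G → ℂ) = 1 := by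
    rw [← classInner_self φ]; simp [classInner, f, fb]
  obtain ⟨η, hη, hNη⟩ := exists_add_of_classInner_ne_zero hN (oneChar G) (by rw [hN1]; exact one_ne_zero)
  have hηn : classInner η η = 1 := by
    have e1 : η = f * fb - (oneChar G : G → ℂ) := by rw [hNη]; simp
    have e2 : classInner (f * fb) (f * fb) = 2 := by
      rw [← hnorm2]
      simp only [classInner, Pi.mul_apply, f, fb, map_mul, Complex.conj_conj]
      congr 1
      exact Finset.sum_congr rfl fun g _ => by ring
    rw [e1, classInner_sub_left, ← classInner_conj_symm (f * fb - (oneChar G : G → ℂ)) (f * fb),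
      ← classInner_conj_symm (f * fb - (oneChar G : G → ℂ)) (oneChar G : G → ℂ),
      classInner_sub_left, classInner_sub_left, e2, hN1, classInner_self,
      ← classInner_conj_symm (f * fb) (oneChar G : G → ℂ), hN1]
    simp only [map_sub, map_ofNat, map_one]
    ring
  let E : IrrCharacter G := ⟨η, isIrrCharacter_of_classInner_self hη hηn⟩
  have hEval : ∀ g, (E : G → ℂ) g = f g * fb g - 1 := fun g => by
    have := congrFun hNη g
    simp only [Pi.mul_apply, Pi.add_apply, oneChar_apply] at this
    show η g = _
    rw [this]; ring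
  have hE1 : (E : G → ℂ) 1 = 8 := by
    rw [hEval]; simp only [f, fb, h3, map_ofNat]; norm_num
  have hEφ : classInner (f * (E : G → ℂ)) (φ : G → ℂ) = 1 := by
    rw [classInner_mul_left_conj]
    have : classInner (E : G → ℂ) (f * fb) = 1 := by
      have hEone : E ≠ oneChar G := fun e => by rw [e, oneChar_apply] at hE1; norm_num at hE1
      rw [← classInner_conj_symm (f * fb) (E : G → ℂ), hNη, classInner_add_left,
        classInner_of_ne (Ne.symm hEone), zero_add]
      show conj (classInner (E : G → ℂ) (E : G → ℂ)) = 1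
      rw [classInner_self, map_one]
    rw [← this]
    congr 1
    funext g
    simp [f, fb, mul_comm]
  let C : G → ℂ := σ * fb
  have hC : IsCharacter G C := isCharacter_mul hσ hfb
  have hprod : f * (E : G → ℂ) = (conjChar s : G → ℂ) + C := by
    funext g
    have e1 := hsq g
    have e2 := congrArg conj (hsq g)
    simp only [map_pow, map_add, Complex.conj_conj] at e2
    have e3 : conj (σ g) = (conjChar s : G → ℂ) g := by rw [hσe, conjChar_apply]
    simp only [Pi.mul_apply, Pi.add_apply, hEval, C, f, fb]
    rw [← e3]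
    linear_combination (conj ((φ : G → ℂ) g)) * e1 + e2
  have hsφ : conjChar s ≠ φ := fun e => by
    rw [← e, conjChar_apply, hs6] at h3
    simp only [map_ofNat] at h3
    norm_num at h3
  have hCφ : classInner C (φ : G → ℂ) = 1 := by
    rw [hprod, classInner_add_left, classInner_of_ne hsφ, zero_add] at hEφ
    exact hEφ
  obtain ⟨R, hR, hCR⟩ := exists_add_of_classInner_ne_zero hC φ (by rw [hCφ]; exact one_ne_zero)
  have hRφ : classInner R (φ : G → ℂ) = 0 := by
    rw [hCR, classInner_add_left, classInner_self] at hCφ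
    linear_combination hCφ
  have hRx : (R x).re < 0 := by
    have := congrFun hCR x
    simp only [C, fb, Pi.mul_apply, Pi.add_apply, hσx, hv, map_neg, map_one] at this
    have e : R x = -1 := by linear_combination -this
    rw [e]; norm_num
  obtain ⟨ψ, hψR, hψx⟩ := exists_constituent_neg hR hRx
  obtain ⟨hψ3, -⟩ := h.three_of_neg ψ hψx
  have hψφ : ψ ≠ φ := fun e => hψR (e ▸ hRφ)
  have hψE : classInner (f * (E : G → ℂ)) (ψ : G → ℂ) ≠ 0 := by
    rw [hprod, classInner_add_left, hCR, classInner_add_left, classInner_of_ne (Ne.symm hψφ), zero_add]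
    obtain ⟨a, ha⟩ := exists_nat_classInner (isCharacter_coe (conjChar s)) ψ
    obtain ⟨b, hb⟩ := exists_nat_classInner hR ψ
    rw [ha, hb, ← Nat.cast_add, Nat.cast_ne_zero]
    have : b ≠ 0 := fun e => hψR (by rw [hb, e, Nat.cast_zero])
    omega
  let P : G → ℂ := fun g => fb g * (ψ : G → ℂ) g
  have hP : IsCharacter G P := isCharacter_mul hfb (isCharacter_coe ψ)
  have hPE : classInner P (E : G → ℂ) ≠ 0 := by
    rw [classInner_mul_left_conj] at hψE
    rw [← classInner_conj_symm (E : G → ℂ) P]
    exact fun e => hψE ((map_eq_zero_iff _ (RingHom.injective _)).1 e)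
  obtain ⟨l, d', m', hl, hPe, hd', -, hm', hdm'⟩ :=
    exists_split hP E hPE (n := 9) (by simp only [P, fb, h3, hψ3, map_ofNat]; norm_num)
  have hd8 : d' = 8 := by
    rw [hE1] at hd'
    exact_mod_cast hd'.symm
  have hl0 : classInner l (oneChar G : G → ℂ) ≠ 0 := by
    intro e
    rw [eq_zero_of_degree_le_one h.perfect hl hm' (by omega) e, Pi.zero_apply] at hm'
    have : m' = 0 := by exact_mod_cast hm'.symm
    omega
  apply hl0
  have e : classInner P (oneChar G : G → ℂ) = 0 := by
    have : classInner P (oneChar G : G → ℂ) = classInner (ψ : G → ℂ) (φ : G → ℂ) := by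
      simp only [classInner, P, fb, oneChar_apply, map_one, mul_one]
      congr 1
      exact Finset.sum_congr rfl fun g _ => mul_comm _ _
    rw [this, classInner_of_ne hψφ]
  have hEone : E ≠ oneChar G := fun e' => by rw [e', oneChar_apply] at hE1; norm_num at hE1
  rwa [hPe, classInner_add_left, classInner_of_ne hEone, zero_add] at e

end CfsgLib.ConstantFour
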