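import Cfsg.Agent.Chars.ConstantFour.Degree
import Cfsg.Agent.Frobenius57.DegreeSixty

/-!
# The quotient of order 60

The characters of degree three with value `-1` at `x` share their kernel `N`; the quotient by `N`
is simple of order 60, contains `x` as an involution, and the centralizer of `x` has the order of
that of its image.
-/

set_option autoImplicit false

open Cfsg CfsgLib.Chars
open scoped ComplexConjugate

namespace CfsgLib.ConstantFour

universe u

variable {G : Type u} [Group G] [Fintype G] {x : G}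

theorem charKer_normal' (φ : IrrCharacter G) : (charKer (φ : G → ℂ)).Normal :=
  charKer_normal (isClassFunction_coe φ)

/-- The quotient by the kernel of such a character has order 60 and is simple. -/
theorem Four.kernel_quotient (h : Four x) {φ : IrrCharacter G} (hφ : Three x φ)
    (N : Subgroup G) [N.Normal] (hN : N = charKer (φ : G → ℂ)) :
    Nat.card (G ⧸ N) = 60 ∧ IsSimpleGroup (G ⧸ N) := by
  have hp : commutator (G ⧸ N) = ⊤ := CfsgLib.Frobenius.Zass.commutator_quotient h.perfect N
  obtain ⟨ψ, hψ⟩ := exists_inflate_eq N φ hN.le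
  have hval : ∀ g : G, (ψ : G ⧸ N → ℂ) g = (φ : G → ℂ) g := fun g => by
    rw [← inflate_apply, hψ]
  have h1 : (ψ : G ⧸ N → ℂ) 1 = 3 := by rw [← QuotientGroup.mk_one, hval, hφ.1]
  have h60 : Nat.card (G ⧸ N) = 60 := by
    refine card_eq_sixty_of_real_three hp ψ h1 (fun q => ?_) (fun q hq => ?_)
    · obtain ⟨g, rfl⟩ := QuotientGroup.mk_surjective q
      rw [hval, ← conjChar_apply, h.three_real hφ]
    · obtain ⟨g, rfl⟩ := QuotientGroup.mk_surjective q
      rw [QuotientGroup.eq_one_iff, hN, mem_charKer_iff (isCharacter_coe φ), hφ.1, ← hval, hq]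
  exact ⟨h60, CfsgLib.DegreeSixty.isSimple_of_card_sixty h60 hp⟩

/-- A function invariant under a normal subgroup is orthogonal to the characters nontrivial on
it. -/
theorem classInner_eq_zero_of_invariant (N : Subgroup G) [N.Normal] (f : G → ℂ)
    (hf : ∀ g, ∀ n ∈ N, f (g * n) = f g) (χ : IrrCharacter G) (hχ : ¬ N ≤ charKer (χ : G → ℂ)) :
    classInner f (χ : G → ℂ) = 0 := by
  classical
  have key : (Nat.card N : ℂ) * ∑ g : G, f g * conj ((χ : G → ℂ) g) = 0 := by
    rw [Nat.card_eq_fintype_card, ← Finset.card_univ, ← nsmul_eq_mul, ← Finset.sum_const]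
    calc ∑ _n : N, ∑ g : G, f g * conj ((χ : G → ℂ) g)
        = ∑ n : N, ∑ g : G, f g * conj ((χ : G → ℂ) (g * n)) :=
          Finset.sum_congr rfl fun n _ =>
            (Fintype.sum_equiv (Equiv.mulRight (n : G)) _ _ fun g => by
              simp [hf g _ n.2]).symm
      _ = ∑ g : G, f g * conj (∑ n : N, (χ : G → ℂ) (g * n)) := by
          rw [Finset.sum_comm]
          exact Finset.sum_congr rfl fun g _ => by rw [map_sum, Finset.mul_sum]
      _ = 0 := Finset.sum_eq_zero fun g _ => by rw [sum_coset_eq_zero N χ hχ g]; simp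
  rw [classInner, (mul_eq_zero.1 key).resolve_left (Nat.cast_ne_zero.2 Nat.card_pos.ne'), mul_zero]

/-- All such characters have the same kernel. -/
theorem Four.kernel_eq (h : Four x) {φ ψ : IrrCharacter G} (hφ : Three x φ) (hψ : Three x ψ) :
    charKer (φ : G → ℂ) = charKer (ψ : G → ℂ) := by
  by_contra hne
  set N := charKer (φ : G → ℂ) with hN
  set K := charKer (ψ : G → ℂ) with hK
  haveI : N.Normal := charKer_normal' φ
  haveI : K.Normal := charKer_normal' ψ
  obtain ⟨hNc, hNs⟩ := h.kernel_quotient hφ N hN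
  obtain ⟨hKc, -⟩ := h.kernel_quotient hψ K hK
  have hsup : N ⊔ K = ⊤ := by
    haveI := hNs
    rcases (inferInstance : ((N ⊔ K).map (QuotientGroup.mk' N)).Normal).eq_bot_or_eq_top with e | e
    · exfalso
      rw [Subgroup.map_eq_bot_iff, QuotientGroup.ker_mk'] at e
      have hKN : K ≤ N := le_sup_right.trans e
      refine hne (Subgroup.eq_of_le_of_card_ge hKN ?_).symm
      have e1 := N.card_eq_card_quotient_mul_card_subgroup
      have e2 := K.card_eq_card_quotient_mul_card_subgroup
      rw [hNc] at e1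
      rw [hKc] at e2
      omega
    · have e' := congrArg (Subgroup.comap (QuotientGroup.mk' N)) e
      rw [Subgroup.comap_map_eq, Subgroup.comap_top, QuotientGroup.ker_mk'] at e'
      rw [← e', sup_comm (N ⊔ K), ← sup_assoc, sup_idem]
  let f : IrrCharacter G → G → ℂ := fun χ g => (χ : G → ℂ) g * (χ : G → ℂ) g
  have hfc : ∀ χ : IrrCharacter G, IsCharacter G (f χ) := fun χ =>
    isCharacter_mul (isCharacter_coe χ) (isCharacter_coe χ)
  have hfinv : ∀ (χ : IrrCharacter G), ∀ g, ∀ n ∈ charKer (χ : G → ℂ), f χ (g * n) = f χ g :=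
    fun χ g n hn => by
      simp only [f]
      rw [classFunction_mul_comm (isClassFunction_coe χ), map_mul_of_mem_charKer hn]
  have hreal : ∀ {χ : IrrCharacter G}, Three x χ → ∀ g, conj ((χ : G → ℂ) g) = (χ : G → ℂ) g :=
    fun hχ g => by rw [← conjChar_apply, h.three_real hχ]
  have hone : ∀ {χ : IrrCharacter G}, Three x χ →
      classInner (f χ) (oneChar G : G → ℂ) = 1 := fun {χ} hχ => by
    rw [← classInner_self χ]
    simp only [classInner, f, oneChar_apply, map_one, mul_one, hreal hχ]
  let P : G → ℂ := fun g => (φ : G → ℂ) g * (ψ : G → ℂ) g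
  have hP : IsCharacter G P := isCharacter_mul (isCharacter_coe φ) (isCharacter_coe ψ)
  have hnorm : classInner P P = 1 := by
    have e : classInner P P = classInner (f φ) (f ψ) := by
      simp only [classInner, P, f, map_mul, hreal hφ, hreal hψ]
      congr 1
      exact Finset.sum_congr rfl fun g _ => by ring
    rw [e, classInner_eq_sum (isClassFunction_of_isCharacter (hfc φ)),
      Finset.sum_eq_single (oneChar G)]
    · rw [hone hφ, hone hψ, map_one, mul_one]
    · intro χ _ hχ
      by_cases h1 : N ≤ charKer (χ : G → ℂ)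
      · by_cases h2 : K ≤ charKer (χ : G → ℂ)
        · exfalso
          apply hχ
          refine eq_one_of_degree_one h.perfect χ ((commutator_le_charKer_iff χ).1 ?_)
          exact le_top.trans (hsup ▸ sup_le h1 h2)
        · rw [classInner_eq_zero_of_invariant K (f ψ) (hfinv ψ) χ h2, map_zero, mul_zero]
      · rw [classInner_eq_zero_of_invariant N (f φ) (hfinv φ) χ h1, zero_mul]
    · simp
  let E : IrrCharacter G := ⟨P, isIrrCharacter_of_classInner_self hP hnorm⟩
  have hE1 : (E : G → ℂ) 1 = 9 := by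
    show P 1 = 9
    simp only [P, hφ.1, hψ.1]
    norm_num
  have hEx : (E : G → ℂ) x = 1 := by
    show P x = 1
    simp only [P, hφ.2, hψ.2]
    norm_num
  have hne1 : E ≠ oneChar G := fun e => by rw [e, oneChar_apply] at hE1; norm_num at hE1
  rcases h.value E hne1 with e | e <;> rw [hEx] at e
  · exact one_ne_zero e
  · rw [hE1] at e; norm_num at e

/-- The quotient of order 60 and the centralizer of `x`. -/
theorem Four.exists_quotient (h : Four x) :
    ∃ (N : Subgroup G) (_ : N.Normal), Nat.card (G ⧸ N) = 60 ∧ IsSimpleGroup (G ⧸ N) ∧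
      x ∉ N ∧ x ^ 2 ∈ N ∧
      Nat.card (Subgroup.centralizer ({x} : Set G)) =
        Nat.card (Subgroup.centralizer ({(x : G ⧸ N)} : Set (G ⧸ N))) := by
  classical
  obtain ⟨φ, hφ⟩ := h.exists_three
  set N := charKer (φ : G → ℂ) with hN
  haveI hNn : N.Normal := charKer_normal' φ
  obtain ⟨h60, hs⟩ := h.kernel_quotient hφ N hN
  have hxN : x ∉ N := fun hx => by
    rw [hN, mem_charKer_iff (isCharacter_coe φ), hφ.1, hφ.2] at hx
    norm_num at hx
  refine ⟨N, hNn, h60, hs, hxN,
    hN ▸ sq_mem_charKer_of_neg_one h.perfect (isCharacter_coe φ) hφ.1 hφ.2, ?_⟩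
  -- the characters outside the quotient vanish at `x`
  have hcol := sum_irr_map_one_mul (G := G) x
  have hcolQ := sum_irr_map_one_mul (G := G ⧸ N) (x : G ⧸ N)
  rw [if_neg h.ne_one] at hcol
  rw [if_neg fun e => hxN ((QuotientGroup.eq_one_iff x).1 e)] at hcolQ
  have hin : ∑ χ ∈ Finset.univ.filter (fun χ : IrrCharacter G => N ≤ charKer (χ : G → ℂ)),
      (χ : G → ℂ) 1 * (χ : G → ℂ) x = 0 := by
    rw [← sum_inflate N (fun χ => (χ : G → ℂ) 1 * (χ : G → ℂ) x), ← hcolQ]
    exact Finset.sum_congr rfl fun ψ _ => by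
      simp only [inflate_apply, QuotientGroup.mk_one]
  rw [← Finset.sum_filter_add_sum_filter_not Finset.univ
    (fun χ : IrrCharacter G => N ≤ charKer (χ : G → ℂ)), hin, zero_add] at hcol
  have hnn : ∀ χ ∈ Finset.univ.filter (fun χ : IrrCharacter G => ¬ N ≤ charKer (χ : G → ℂ)),
      0 ≤ ((χ : G → ℂ) 1 * (χ : G → ℂ) x).re ∧
        (((χ : G → ℂ) 1 * (χ : G → ℂ) x).re = 0 → (χ : G → ℂ) x = 0) := by
    intro χ hχ
    have hχN := (Finset.mem_filter.1 hχ).2
    have hne : χ ≠ oneChar G := fun e => hχN (fun g _ k => by simp [e])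
    rcases h.trichotomy χ hne with e | e | ⟨d, hd, e1, e2⟩
    · exact absurd (h.kernel_eq hφ e).le hχN
    · simp [e]
    · rw [e1, e2]
      have hd' : (5 : ℝ) ≤ d := by exact_mod_cast hd
      simp only [Complex.mul_re, Complex.natCast_re, Complex.natCast_im, Complex.sub_re,
        Complex.re_ofNat, zero_mul, sub_zero]
      refine ⟨by nlinarith, fun h0 => ?_⟩
      exfalso
      nlinarith
  have hr := congrArg Complex.re hcol
  rw [Complex.re_sum, Complex.zero_re] at hr
  have hzero : ∀ χ : IrrCharacter G, ¬ N ≤ charKer (χ : G → ℂ) → (χ : G → ℂ) x = 0 := fun χ hχ =>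
    (hnn χ (Finset.mem_filter.2 ⟨Finset.mem_univ _, hχ⟩)).2
      ((Finset.sum_eq_zero_iff_of_nonneg fun y hy => (hnn y hy).1).1 hr χ
        (Finset.mem_filter.2 ⟨Finset.mem_univ _, hχ⟩))
  have e : ((Nat.card (Subgroup.centralizer ({x} : Set G)) : ℕ) : ℝ) =
      (Nat.card (Subgroup.centralizer ({(x : G ⧸ N)} : Set (G ⧸ N))) : ℝ) := by
    rw [← sum_irr_norm_sq, ← sum_irr_norm_sq, ← Finset.sum_filter_add_sum_filter_not Finset.univ
      (fun χ : IrrCharacter G => N ≤ charKer (χ : G → ℂ)),
      Finset.sum_eq_zero (s := Finset.univ.filter fun χ : IrrCharacter G =>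
        ¬ N ≤ charKer (χ : G → ℂ))
        fun χ hχ => by rw [hzero χ (Finset.mem_filter.1 hχ).2]; simp, add_zero,
      ← sum_inflate N (fun χ => ‖(χ : G → ℂ) x‖ ^ 2)]
    exact Finset.sum_congr rfl fun ψ _ => by simp only [inflate_apply]
  exact_mod_cast e

end CfsgLib.ConstantFour
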