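import Cfsg.Agent.Chars.Basic
import Cfsg.Agent.Chars.FrobSchur.Basic
import Cfsg.Agent.Chars.Ito.AltSquare

/-!
# Characters of degree three of perfect groups

The determinant of a representation of a perfect group is trivial, so an element has eigenvalues
`a`, `b`, `c` with `a * b * c = 1`, and the alternating square of a character of degree three is
its conjugate.
-/

set_option autoImplicit false

open Cfsg CfsgLib.Chars CfsgLib.FrobSchur
open scoped ComplexConjugate

namespace CfsgLib.ConstantFour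

universe u

variable {G : Type u} [Group G] [Finite G]

/-- The determinant of a `3 × 3` matrix from the traces of its powers. -/
theorem six_mul_det (A : Matrix (Fin 3) (Fin 3) ℂ) :
    6 * A.det = A.trace ^ 3 - 3 * A.trace * (A ^ 2).trace + 2 * (A ^ 3).trace := by
  simp only [Matrix.det_fin_three, Matrix.trace_fin_three, pow_succ, pow_zero, one_mul,
    Matrix.mul_apply, Fin.sum_univ_three]
  ring

/-- Newton's identity for the characters of degree three of a perfect group. -/
theorem newton (hperf : commutator G = ⊤) {χ : G → ℂ} (hχ : IsCharacter G χ) (h3 : χ 1 = 3)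
    (g : G) : χ g ^ 3 - 3 * χ g * χ (g ^ 2) + 2 * χ (g ^ 3) = 6 := by
  obtain ⟨n, ρ, rfl⟩ := hχ
  rw [Representation.char_one, Module.finrank_fin_fun] at h3
  obtain rfl : n = 3 := by exact_mod_cast h3
  let d : G →* ℂˣ := MonoidHom.toHomUnits (Matrix.detMonoidHom.comp (mat ρ))
  have hd : d g = 1 := MonoidHom.mem_ker.mp
    (Abelianization.commutator_subset_ker d (hperf ▸ Subgroup.mem_top g))
  have h1 : (mat ρ g).det = 1 := congrArg Units.val hd
  have h := six_mul_det (mat ρ g)
  rw [h1, ← map_pow, ← map_pow, trace_mat, trace_mat, trace_mat, mul_one] at h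
  exact h.symm

/-- The three eigenvalues of an element. -/
theorem exists_three_roots (hperf : commutator G = ⊤) {χ : G → ℂ} (hχ : IsCharacter G χ)
    (h3 : χ 1 = 3) (g : G) :
    ∃ a b c : ℂ, ‖a‖ = 1 ∧ ‖b‖ = 1 ∧ ‖c‖ = 1 ∧ a * b * c = 1 ∧
      a ^ orderOf g = 1 ∧ b ^ orderOf g = 1 ∧ c ^ orderOf g = 1 ∧
      ∀ k : ℕ, χ (g ^ k) = a ^ k + b ^ k + c ^ k := by
  obtain ⟨s, hs1, hs2, hs3⟩ := exists_roots hχ g
  rw [h3] at hs2
  obtain ⟨a, b, c, rfl⟩ := Multiset.card_eq_three.1 (by exact_mod_cast hs2)
  have hk : ∀ k : ℕ, χ (g ^ k) = a ^ k + b ^ k + c ^ k := fun k => by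
    rw [hs3 k]; simp [add_assoc]
  have ha := hs1 a (by simp)
  have hb := hs1 b (by simp)
  have hc := hs1 c (by simp)
  refine ⟨a, b, c, norm_eq_one_of_pow_orderOf ha, norm_eq_one_of_pow_orderOf hb,
    norm_eq_one_of_pow_orderOf hc, ?_, ha, hb, hc, hk⟩
  have h := newton hperf hχ h3 g
  rw [← pow_one g, hk 1] at h
  simp only [pow_one] at h
  rw [hk 2, hk 3] at h
  linear_combination h / 6

theorem conj_eq_inv_of_norm {z : ℂ} (hz : ‖z‖ = 1) : conj z = z⁻¹ := by
  rw [Complex.inv_eq_conj hz]

/-- The square of a character of degree three of a perfect group. -/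
theorem sq_eq (hperf : commutator G = ⊤) {χ : G → ℂ} (hχ : IsCharacter G χ) (h3 : χ 1 = 3)
    (g : G) : χ g ^ 2 = χ (g ^ 2) + 2 * conj (χ g) := by
  obtain ⟨a, b, c, ha, hb, hc, habc, -, -, -, hk⟩ := exists_three_roots hperf hχ h3 g
  have ha0 : a ≠ 0 := by rintro rfl; simp at ha
  have hb0 : b ≠ 0 := by rintro rfl; simp at hb
  have hc0 : c ≠ 0 := by rintro rfl; simp at hc
  have e : conj (χ g) = b * c + a * c + a * b := by
    rw [← pow_one g, hk 1]
    simp only [pow_one, map_add, conj_eq_inv_of_norm ha, conj_eq_inv_of_norm hb,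
      conj_eq_inv_of_norm hc]
    field_simp
    linear_combination (-(b * c + a * c + a * b)) * habc
  rw [e, hk 2, ← pow_one g, hk 1]
  simp only [pow_one]
  ring

/-- An element with value `-1` squares into the kernel. -/
theorem sq_mem_charKer_of_neg_one (hperf : commutator G = ⊤) {χ : G → ℂ} (hχ : IsCharacter G χ)
    (h3 : χ 1 = 3) {g : G} (hg : χ g = -1) : g ^ 2 ∈ charKer χ := by
  rw [mem_charKer_iff hχ, h3]
  have h := sq_eq hperf hχ h3 g
  rw [hg, map_neg, map_one] at h
  linear_combination -h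

/-- The trivial character occurs exactly once in a real character of degree three restricted to a
nontrivial cyclic subgroup outside the kernel. -/
theorem sum_pow_eq (hperf : commutator G = ⊤) {χ : G → ℂ} (hχ : IsCharacter G χ) (h3 : χ 1 = 3)
    (hreal : ∀ g, conj (χ g) = χ g) {g : G} (hg : χ g ≠ 3) :
    ∑ k ∈ Finset.range (orderOf g), χ (g ^ k) = orderOf g := by
  obtain ⟨a, b, c, ha, hb, hc, habc, hao, hbo, hco, hk⟩ := exists_three_roots hperf hχ h3 g
  have h1 : χ g = a + b + c := by rw [← pow_one g, hk 1]; simp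
  have hgeom : ∀ z : ℂ, z ^ orderOf g = 1 → z ≠ 1 → ∑ k ∈ Finset.range (orderOf g), z ^ k = 0 :=
    fun z hz hz1 => by rw [geom_sum_eq hz1, hz, sub_self, zero_div]
  -- one root is one
  have hone : a = 1 ∨ b = 1 ∨ c = 1 := by
    have ha0 : a ≠ 0 := by rintro rfl; simp at ha
    have hb0 : b ≠ 0 := by rintro rfl; simp at hb
    have hc0 : c ≠ 0 := by rintro rfl; simp at hc
    have h2 : a + b + c = b * c + a * c + a * b := by
      rw [← h1, ← hreal g, h1, map_add, map_add, conj_eq_inv_of_norm ha, conj_eq_inv_of_norm hb,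
        conj_eq_inv_of_norm hc]
      field_simp
      linear_combination (-(b * c + a * c + a * b)) * habc
    have : (1 - a) * (1 - b) * (1 - c) = 0 := by linear_combination -h2 - habc
    rcases mul_eq_zero.1 this with h | h
    · rcases mul_eq_zero.1 h with h | h
      · exact Or.inl (sub_eq_zero.1 h).symm
      · exact Or.inr (Or.inl (sub_eq_zero.1 h).symm)
    · exact Or.inr (Or.inr (sub_eq_zero.1 h).symm)
  simp only [hk, Finset.sum_add_distrib]
  rcases hone with rfl | rfl | rfl
  · have hb1 : b ≠ 1 := fun e => hg (by rw [h1]; subst e; rw [one_mul, one_mul] at habc; rw [habc]; ring)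
    have hc1 : c ≠ 1 := fun e => hg (by rw [h1]; subst e; rw [one_mul, mul_one] at habc; rw [habc]; ring)
    simp [hgeom b hbo hb1, hgeom c hco hc1]
  · have ha1 : a ≠ 1 := fun e => hg (by rw [h1]; subst e; rw [one_mul, one_mul] at habc; rw [habc]; ring)
    have hc1 : c ≠ 1 := fun e => hg (by rw [h1]; subst e; rw [mul_one, mul_one] at habc; rw [habc]; ring)
    simp [hgeom a hao ha1, hgeom c hco hc1]
  · have ha1 : a ≠ 1 := fun e => hg (by rw [h1]; subst e; rw [one_mul, mul_one] at habc; rw [habc]; ring)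
    have hb1 : b ≠ 1 := fun e => hg (by rw [h1]; subst e; rw [mul_one, mul_one] at habc; rw [habc]; ring)
    simp [hgeom a hao ha1, hgeom b hbo hb1]

end CfsgLib.ConstantFour
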